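import Cfsg.Agent.Lib.Helper19.Fi23a.DataB

/-! Generated file: Todd–Coxeter certificate data and checks. -/

set_option autoImplicit false
set_option maxRecDepth 1000000

namespace Cfsg.Agent.Lib.Helper19.Fi23a

open Cfsg.Agent.Lib.Helper19.TCS (evn evn_rot evn_rev evn_pair AllS forall_of_allS lift_rels mk_eq_lift cox_swap shapeI prod_rep index_of_equiv orbit_ncard orbit_image ncard_interval fix_of_closure RC)
open Cfsg.Agent.Lib.Helper19.TC2

theorem cx_2_9_0 : loop (fun i => Nat.beq (E_2_9 i) i) 0 31671 = true := by decide +kernel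

theorem cx_3_4_0 : loop (fun i => Nat.beq (E_3_4 i) i) 0 31671 = true := by decide +kernel

theorem cx_3_5_0 : loop (fun i => Nat.beq (E_3_5 i) i) 0 31671 = true := by decide +kernel

theorem cx_3_6_0 : loop (fun i => Nat.beq (E_3_6 i) i) 0 31671 = true := by decide +kernel

theorem cx_3_7_0 : loop (fun i => Nat.beq (E_3_7 i) i) 0 31671 = true := by decide +kernel

theorem cx_3_8_0 : loop (fun i => Nat.beq (E_3_8 i) i) 0 31671 = true := by decide +kernel

theorem cx_3_9_0 : loop (fun i => Nat.beq (E_3_9 i) i) 0 31671 = true := by decide +kernel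

theorem cx_4_5_0 : loop (fun i => Nat.beq (E_4_5 i) i) 0 31671 = true := by decide +kernel

theorem cx_4_6_0 : loop (fun i => Nat.beq (E_4_6 i) i) 0 31671 = true := by decide +kernel

theorem cx_4_7_0 : loop (fun i => Nat.beq (E_4_7 i) i) 0 31671 = true := by decide +kernel

theorem cx_4_8_0 : loop (fun i => Nat.beq (E_4_8 i) i) 0 31671 = true := by decide +kernel

theorem cx_4_9_0 : loop (fun i => Nat.beq (E_4_9 i) i) 0 31671 = true := by decide +kernel

theorem cx_5_6_0 : loop (fun i => Nat.beq (E_5_6 i) i) 0 31671 = true := by decide +kernel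

theorem cx_5_7_0 : loop (fun i => Nat.beq (E_5_7 i) i) 0 31671 = true := by decide +kernel

theorem cx_5_8_0 : loop (fun i => Nat.beq (E_5_8 i) i) 0 31671 = true := by decide +kernel

theorem cx_5_9_0 : loop (fun i => Nat.beq (E_5_9 i) i) 0 31671 = true := by decide +kernel

theorem cx_6_7_0 : loop (fun i => Nat.beq (E_6_7 i) i) 0 31671 = true := by decide +kernel

theorem cx_6_8_0 : loop (fun i => Nat.beq (E_6_8 i) i) 0 31671 = true := by decide +kernel

theorem cx_6_9_0 : loop (fun i => Nat.beq (E_6_9 i) i) 0 31671 = true := by decide +kernel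

theorem cx_7_8_0 : loop (fun i => Nat.beq (E_7_8 i) i) 0 31671 = true := by decide +kernel

theorem cx_7_9_0 : loop (fun i => Nat.beq (E_7_9 i) i) 0 31671 = true := by decide +kernel

theorem cx_8_9_0 : loop (fun i => Nat.beq (E_8_9 i) i) 0 31671 = true := by decide +kernel

theorem ex_0_0 : loop (fun i => Nat.beq (X_0 i) i) 0 11111 = true := by decide +kernel

end Cfsg.Agent.Lib.Helper19.Fi23a
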